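import Mathlib
import Cfsg.Prelude.Def_CaseTheorems
import Cfsg.Prelude.Def_Transfer
import Cfsg.Agent.Solv.Core

/-! The affine group of a module over `F_2` and translation of dimensions into indices. -/

set_option autoImplicit false

namespace Cfsg.Agent.BS

open Subgroup

section
variable {G : Type*} [Group G] {V : Type*} [AddCommGroup V] [Module (ZMod 2) V]

/-- the action by automorphisms on `Multiplicative V` -/
def affAct (ρ : Representation (ZMod 2) G V) : G →* MulAut (Multiplicative V) where
  toFun g :=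
    { toFun := fun v => Multiplicative.ofAdd (ρ g (Multiplicative.toAdd v))
      invFun := fun v => Multiplicative.ofAdd (ρ g⁻¹ (Multiplicative.toAdd v))
      left_inv := fun v => by
        show Multiplicative.ofAdd (ρ g⁻¹ (ρ g (Multiplicative.toAdd v))) = v
        rw [← Module.End.mul_apply, ← map_mul, inv_mul_cancel, map_one]
        rfl
      right_inv := fun v => by
        show Multiplicative.ofAdd (ρ g (ρ g⁻¹ (Multiplicative.toAdd v))) = v
        rw [← Module.End.mul_apply, ← map_mul, mul_inv_cancel, map_one]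
        rfl
      map_mul' := fun v w => by
        show Multiplicative.ofAdd (ρ g (Multiplicative.toAdd v + Multiplicative.toAdd w)) = _
        rw [map_add]
        rfl }
  map_one' := by
    ext v
    show Multiplicative.ofAdd (ρ 1 (Multiplicative.toAdd v)) = v
    rw [map_one]
    rfl
  map_mul' g h := by
    ext v
    show Multiplicative.ofAdd (ρ (g * h) (Multiplicative.toAdd v)) = Multiplicative.ofAdd (ρ g (ρ h (Multiplicative.toAdd v)))
    rw [map_mul]
    rfl

/-- the affine group -/
abbrev Aff (ρ : Representation (ZMod 2) G V) := Multiplicative V ⋊[affAct ρ] G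

variable (ρ : Representation (ZMod 2) G V)

/-- the translations -/
def Tr : Subgroup (Aff ρ) := (SemidirectProduct.inl : Multiplicative V →* Aff ρ).range

theorem mem_Tr {x : Aff ρ} : x ∈ Tr ρ ↔ ∃ v : V, x = SemidirectProduct.inl (Multiplicative.ofAdd v) := by
  constructor
  · rintro ⟨v, rfl⟩
    exact ⟨Multiplicative.toAdd v, rfl⟩
  · rintro ⟨v, rfl⟩
    exact ⟨_, rfl⟩

theorem elab_Tr : Cfsg.IsElementaryAbelian 2 (Tr ρ) := by
  constructor
  · refine ⟨⟨?_⟩⟩
    rintro ⟨x, hx⟩ ⟨y, hy⟩
    obtain ⟨v, rfl⟩ := (mem_Tr ρ).1 hx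
    obtain ⟨w, rfl⟩ := (mem_Tr ρ).1 hy
    apply Subtype.ext
    show (SemidirectProduct.inl (Multiplicative.ofAdd v) : Aff ρ) * SemidirectProduct.inl (Multiplicative.ofAdd w) =
      SemidirectProduct.inl (Multiplicative.ofAdd w) * SemidirectProduct.inl (Multiplicative.ofAdd v)
    exact ((Commute.all (Multiplicative.ofAdd v) (Multiplicative.ofAdd w)).map
      (SemidirectProduct.inl : Multiplicative V →* Aff ρ)).eq
  · intro x hx
    obtain ⟨v, rfl⟩ := (mem_Tr ρ).1 hx
    rw [← map_pow, ← ofAdd_nsmul]
    have : (2 : ℕ) • v = 0 := by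
      rw [← Nat.cast_smul_eq_nsmul (ZMod 2)]
      have : ((2 : ℕ) : ZMod 2) = 0 := by decide
      rw [this, zero_smul]
    rw [this]
    simp

theorem normal_Tr : (Tr ρ).Normal := by
  have : Tr ρ = (SemidirectProduct.rightHom : Aff ρ →* G).ker := SemidirectProduct.range_inl_eq_ker_rightHom
  rw [this]
  infer_instance

theorem inr_comm_iff {g : G} {v : V} :
    (SemidirectProduct.inl (Multiplicative.ofAdd v) : Aff ρ) * SemidirectProduct.inr g =
      SemidirectProduct.inr g * SemidirectProduct.inl (Multiplicative.ofAdd v) ↔ ρ g v = v := by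
  rw [SemidirectProduct.ext_iff]
  simp only [SemidirectProduct.mul_left, SemidirectProduct.mul_right, SemidirectProduct.left_inl,
    SemidirectProduct.left_inr, SemidirectProduct.right_inl, SemidirectProduct.right_inr, map_one, mul_one,
    one_mul, and_true]
  constructor
  · intro h
    exact (Multiplicative.ofAdd.injective h).symm
  · intro h
    show Multiplicative.ofAdd v = Multiplicative.ofAdd (ρ g v)
    rw [h]

variable [Finite G] [Module.Finite (ZMod 2) V]

omit [Finite G] in
theorem finite_V : Finite V := Module.finite_of_finite (ZMod 2)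

instance finite_Aff : Finite (Aff ρ) := by
  have := finite_V (V := V)
  exact Finite.of_equiv _ (SemidirectProduct.equivProd (φ := affAct ρ)).symm

omit [Finite G] in
theorem card_sub (W : Submodule (ZMod 2) V) : Nat.card W = 2 ^ Module.finrank (ZMod 2) W := by
  have := finite_V (V := V)
  have : Fintype W := Fintype.ofFinite _
  rw [Nat.card_eq_fintype_card, Module.card_eq_pow_finrank (K := ZMod 2), ZMod.card]

omit [Finite G] in
theorem card_Tr : Nat.card (Tr ρ) = 2 ^ Module.finrank (ZMod 2) V := by
  have := finite_V (V := V)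
  have : Fintype V := Fintype.ofFinite _
  have h1 : Nat.card (Tr ρ) = Nat.card V := by
    unfold Tr
    rw [← Nat.card_congr (MonoidHom.ofInjective (SemidirectProduct.inl_injective (φ := affAct ρ))).toEquiv]
    rfl
  rw [h1, Nat.card_eq_fintype_card, Module.card_eq_pow_finrank (K := ZMod 2), ZMod.card]

omit [Finite G] in
theorem card_inf (g : G) : Nat.card (Tr ρ ⊓ centralizer ({SemidirectProduct.inr g} : Set (Aff ρ)) : Subgroup (Aff ρ)) =
    2 ^ Module.finrank (ZMod 2) (LinearMap.ker (ρ g - 1)) := by
  rw [← card_sub]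
  symm
  apply Nat.card_congr
  have hk : ∀ v : V, v ∈ LinearMap.ker (ρ g - 1) ↔ ρ g v = v := by
    intro v
    rw [LinearMap.mem_ker, LinearMap.sub_apply, Module.End.one_apply, sub_eq_zero]
  refine Equiv.ofBijective (fun v => ⟨SemidirectProduct.inl (Multiplicative.ofAdd v.1), ⟨_, rfl⟩, ?_⟩) ⟨?_, ?_⟩
  · exact Subgroup.mem_centralizer_singleton_iff.2 ((inr_comm_iff ρ).2 ((hk _).1 v.2))
  · intro v w hvw
    have h1 := congrArg Subtype.val hvw
    exact Subtype.ext (Multiplicative.ofAdd.injective (SemidirectProduct.inl_injective h1))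
  · rintro ⟨x, hx, hx2⟩
    obtain ⟨v, rfl⟩ := (mem_Tr ρ).1 hx
    exact ⟨⟨v, (hk _).2 ((inr_comm_iff ρ).1 (Subgroup.mem_centralizer_singleton_iff.1 hx2))⟩, rfl⟩

theorem relIndex_eq (g : G) :
    (Tr ρ ⊓ centralizer ({SemidirectProduct.inr g} : Set (Aff ρ))).relIndex (Tr ρ) =
      2 ^ Module.finrank (ZMod 2) (LinearMap.range (ρ g - 1)) := by
  set C := Tr ρ ⊓ centralizer ({SemidirectProduct.inr g} : Set (Aff ρ)) with hC
  have h1 := (C.subgroupOf (Tr ρ)).card_mul_index
  have h2 : Nat.card (C.subgroupOf (Tr ρ)) = Nat.card C :=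
    Nat.card_congr (Subgroup.subgroupOfEquivOfLe (inf_le_left : C ≤ Tr ρ)).toEquiv
  have h3 := LinearMap.finrank_range_add_finrank_ker (ρ g - 1)
  rw [h2, card_Tr, hC, card_inf, ← h3, pow_add, mul_comm] at h1
  exact Nat.eq_of_mul_eq_mul_right (by positivity) h1

end

end Cfsg.Agent.BS
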