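import Cfsg.Prelude.Def_CaseTheorems
import Cfsg.Agent.H80.StrongEmb
import Cfsg.Agent.BS.SPE

/-! All maximal 2-local subgroups conjugate => strongly embedded. -/

set_option autoImplicit false

namespace Cfsg.Agent.BS

open Subgroup
open scoped Pointwise

variable {G : Type*} [Group G] [Finite G]

theorem exists_max {N : Subgroup G} (hN : IsTwoLocal N) : ∃ M, IsMaximalTwoLocal M ∧ N ≤ M := by
  have hfin : {M : Subgroup G | IsTwoLocal M ∧ N ≤ M}.Finite := Set.toFinite _
  obtain ⟨M, ⟨hM, hNM⟩, hmax⟩ := Set.exists_max_image _ (fun X : Subgroup G => Nat.card X) hfin ⟨N, hN, le_rfl⟩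
  exact ⟨M, ⟨hM, fun N' hN' h => (Subgroup.eq_of_le_of_card_ge h (hmax N' ⟨hN', hNM.trans h⟩)).symm⟩, hNM⟩

theorem conj_smul_eq_of_mem {M : Subgroup G} {g : G} (hg : g ∈ M) : MulAut.conj g • M = M :=
  Subgroup.conj_smul_eq_self_of_mem hg

/-- a maximal 2-local subgroup over a Sylow 2-subgroup is unique -/
theorem uniq_sylow
    (h1 : ∀ M M' : Subgroup G, Cfsg.IsMaximalTwoLocal M → Cfsg.IsMaximalTwoLocal M' →
      ∃ g : G, M' = M.map (MulAut.conj g).toMonoidHom)
    (S : Sylow 2 G) (hS1 : (S : Subgroup G) ≠ ⊥) {M M₁ : Subgroup G} (hM : Cfsg.IsMaximalTwoLocal M)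
    (hM1 : Cfsg.IsMaximalTwoLocal M₁) (hS : (S : Subgroup G) ≤ M) (hSM1 : (S : Subgroup G) ≤ M₁) : M = M₁ := by
  have := Fact.mk Nat.prime_two
  obtain ⟨M₀, hM0, hN0⟩ := exists_max (G := G) ⟨(S : Subgroup G), S.isPGroup', hS1, rfl⟩
  have key : ∀ M : Subgroup G, Cfsg.IsMaximalTwoLocal M → (S : Subgroup G) ≤ M → M = M₀ := by
    intro M hM hS
    obtain ⟨h, hh⟩ := h1 M M₀ hM hM0
    -- h M h⁻¹ = M₀
    have hh' : M₀ = MulAut.conj h • M := hh
    have hS0 : (S : Subgroup G) ≤ M₀ := le_normalizer.trans hN0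
    -- two Sylows of M
    have hS' : ((h⁻¹ • S : Sylow 2 G) : Subgroup G) ≤ M := by
      rw [Sylow.coe_subgroup_smul]
      have h2 : MulAut.conj h⁻¹ • (S : Subgroup G) ≤ MulAut.conj h⁻¹ • M₀ :=
        Subgroup.pointwise_smul_le_pointwise_smul_iff.2 hS0
      rwa [hh', smul_smul, ← map_mul, inv_mul_cancel, map_one, one_smul] at h2
    obtain ⟨m, hm⟩ := MulAction.exists_smul_eq ↥M ((h⁻¹ • S : Sylow 2 G).subtype hS') (S.subtype hS)
    have h3 : ((m : G) * h⁻¹) • S = S := by
      rw [Sylow.smul_subtype] at hm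
      rw [mul_smul]
      exact Sylow.subtype_injective hm
    have hn : (m : G) * h⁻¹ ∈ M₀ := by
      apply hN0
      rw [Sylow.smul_eq_iff_mem_normalizer] at h3
      exact h3
    have h5 : MulAut.conj ((m : G) * h⁻¹) • M₀ = M := by
      rw [hh', smul_smul, ← map_mul, inv_mul_cancel_right]
      exact conj_smul_eq_of_mem m.2
    rw [← h5]
    exact conj_smul_eq_of_mem hn
  rw [key M hM hS, key M₁ hM1 hSM1]

theorem contains_sylow
    (h1 : ∀ M M' : Subgroup G, Cfsg.IsMaximalTwoLocal M → Cfsg.IsMaximalTwoLocal M' →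
      ∃ g : G, M' = M.map (MulAut.conj g).toMonoidHom)
    (he : 2 ∣ Nat.card G) {M : Subgroup G} (hM : Cfsg.IsMaximalTwoLocal M) :
    ∃ S : Sylow 2 G, (S : Subgroup G) ≤ M := by
  have := Fact.mk Nat.prime_two
  obtain ⟨S⟩ : Nonempty (Sylow 2 G) := inferInstance
  have hS1 : (S : Subgroup G) ≠ ⊥ := S.ne_bot_of_dvd_card he
  obtain ⟨M₀, hM0, hN0⟩ := exists_max (G := G) ⟨(S : Subgroup G), S.isPGroup', hS1, rfl⟩
  obtain ⟨h, hh⟩ := h1 M₀ M hM0 hM
  refine ⟨h • S, ?_⟩
  rw [Sylow.coe_subgroup_smul, hh]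
  exact Subgroup.pointwise_smul_le_pointwise_smul_iff.2 (le_normalizer.trans hN0)

theorem uniq
    (h1 : ∀ M M' : Subgroup G, Cfsg.IsMaximalTwoLocal M → Cfsg.IsMaximalTwoLocal M' →
      ∃ g : G, M' = M.map (MulAut.conj g).toMonoidHom)
    (he : 2 ∣ Nat.card G) :
    ∀ (k : ℕ) (X : Subgroup G), Nat.card G - Nat.card X ≤ k → IsPGroup 2 X → X ≠ ⊥ →
      ∀ M M₁ : Subgroup G, Cfsg.IsMaximalTwoLocal M → Cfsg.IsMaximalTwoLocal M₁ → X ≤ M → X ≤ M₁ → M = M₁ := by
  have := Fact.mk Nat.prime_two
  intro k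
  induction k with
  | zero =>
    intro X hk hX hX1 M M₁ hM hM1 hXM hXM1
    have h2 : Nat.card X = Nat.card G := le_antisymm (Subgroup.card_le_card_group X) (by omega)
    have h3 : X = ⊤ := Subgroup.eq_top_of_card_eq X h2
    rw [h3] at hXM hXM1
    rw [top_le_iff.1 hXM, top_le_iff.1 hXM1]
  | succ k ih =>
    intro X hk hX hX1 M M₁ hM hM1 hXM hXM1
    by_cases hSyl : ∃ S : Sylow 2 G, (S : Subgroup G) = X
    · obtain ⟨S, rfl⟩ := hSyl
      exact uniq_sylow h1 S hX1 hM hM1 hXM hXM1
    · -- X grows in M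
      obtain ⟨M₂, hM2, hN2⟩ := exists_max (G := G) ⟨X, hX, hX1, rfl⟩
      have grow : ∀ M : Subgroup G, Cfsg.IsMaximalTwoLocal M → X ≤ M → M = M₂ := by
        intro M hM hXM
        obtain ⟨S, hS⟩ := contains_sylow h1 he hM
        -- a Sylow of M over X
        obtain ⟨P, hP⟩ := (hX.comap_of_injective M.subtype M.subtype_injective :
          IsPGroup 2 (X.subgroupOf M)).exists_le_sylow
        set P' : Subgroup G := (P : Subgroup M).map M.subtype with hP'
        have hXP : X ≤ P' := by
          intro x hx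
          exact ⟨⟨x, hXM hx⟩, hP hx, rfl⟩
        have hPc : Nat.card P' = Nat.card S := by
          obtain ⟨m, hm⟩ := MulAction.exists_smul_eq ↥M P (S.subtype hS)
          have e1 : Nat.card P' = Nat.card (P : Subgroup M) :=
            Nat.card_congr (Subgroup.equivMapOfInjective _ _ M.subtype_injective).toEquiv.symm
          have e2 : Nat.card (P : Subgroup M) = Nat.card (S.subtype hS : Sylow 2 M) := by
            rw [← hm]
            exact Nat.card_congr (Subgroup.equivSMul (MulAut.conj m) (P : Subgroup M)).toEquiv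
          have e3 : Nat.card (S.subtype hS : Sylow 2 M) = Nat.card S := by
            change Nat.card ((S : Subgroup G).subgroupOf M) = _
            exact Nat.card_congr (Subgroup.subgroupOfEquivOfLe hS).toEquiv
          rw [e1, e2, e3]
        have hlt : X < P' := by
          refine lt_of_le_of_ne hXP ?_
          intro h
          apply hSyl
          have hc : Nat.card X = Nat.card S := by rw [h, hPc]
          refine ⟨Sylow.ofCard X ?_, rfl⟩
          rw [hc, S.card_eq_multiplicity]
        have hP'p : IsPGroup 2 P' := P.isPGroup'.map _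
        -- normalizer grows
        obtain ⟨x, hxP, hxN, hxX⟩ : ∃ x ∈ P', x ∈ normalizer (X : Set G) ∧ x ∉ X := by
          have hnil : Group.IsNilpotent ↥P' := hP'p.isNilpotent
          have hnc := Group.normalizerCondition_of_isNilpotent (G := ↥P')
          have h1 : X.subgroupOf P' < ⊤ := by
            rw [lt_top_iff_ne_top]
            intro h1
            rw [Subgroup.subgroupOf_eq_top] at h1
            exact absurd (lt_of_lt_of_le hlt h1) (lt_irrefl _)
          obtain ⟨x, hx1, hx2⟩ := SetLike.exists_of_lt (hnc _ h1)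
          refine ⟨x, x.2, ?_, fun h => hx2 h⟩
          rw [Subgroup.mem_normalizer_iff] at hx1 ⊢
          intro y
          constructor
          · intro hy
            exact (hx1 ⟨y, hXP hy⟩).1 hy
          · intro hy
            have hy' : y ∈ P' := by
              have := mul_mem (mul_mem (inv_mem x.2) (hXP hy)) x.2
              simpa [mul_assoc] using this
            exact (hx1 ⟨y, hy'⟩).2 hy
        set E : Subgroup G := P' ⊓ normalizer (X : Set G) with hE
        have hEp : IsPGroup 2 E := hP'p.to_le inf_le_left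
        have hXE : X < E := by
          refine lt_of_le_of_ne (le_inf hXP le_normalizer) ?_
          intro h
          apply hxX
          rw [h]
          exact ⟨hxP, hxN⟩
        have hcard : Nat.card X < Nat.card E := by
          refine lt_of_le_of_ne (Subgroup.card_le_of_le hXE.le) ?_
          intro h
          exact hXE.ne (Subgroup.eq_of_le_of_card_ge hXE.le h.ge)
        refine ih E ?_ hEp ?_ M M₂ hM hM2 ?_ (inf_le_right.trans hN2)
        · have := Subgroup.card_le_card_group E
          omega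
        · intro h
          apply hX1
          rw [eq_bot_iff, ← h]
          exact hXE.le
        · exact inf_le_left.trans (Subgroup.map_subtype_le _)
      rw [grow M hM hXM, grow M₁ hM1 hXM1]

theorem stronglyEmbedded_of_one_class [IsSimpleGroup G] (hG : ¬ IsMulCommutative G) (he : 2 ∣ Nat.card G)
    (h1 : ∀ M M' : Subgroup G, Cfsg.IsMaximalTwoLocal M → Cfsg.IsMaximalTwoLocal M' →
      ∃ g : G, M' = M.map (MulAut.conj g).toMonoidHom) :
    ∃ M : Subgroup G, Cfsg.IsStronglyEmbedded M := by
  have := Fact.mk Nat.prime_two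
  obtain ⟨S⟩ : Nonempty (Sylow 2 G) := inferInstance
  have hS1 : (S : Subgroup G) ≠ ⊥ := S.ne_bot_of_dvd_card he
  obtain ⟨M, hM, hN⟩ := exists_max (G := G) ⟨(S : Subgroup G), S.isPGroup', hS1, rfl⟩
  have hSM : (S : Subgroup G) ≤ M := le_normalizer.trans hN
  refine ⟨M, ?_⟩
  have hMtop : M ≠ ⊤ := by
    obtain ⟨T, hT, hT1, hMT⟩ := hM.1
    intro h
    rw [h] at hMT
    have hTn : T.Normal := Subgroup.normalizer_eq_top_iff.1 hMT.symm
    rcases hTn.eq_bot_or_eq_top with h2 | h2
    · exact hT1 h2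
    · -- G is a 2-group, hence abelian
      have h3 : IsPGroup 2 G := by
        subst h2
        intro g
        obtain ⟨k, hk⟩ := hT ⟨g, trivial⟩
        exact ⟨k, congrArg Subtype.val hk⟩
      have h4 : Nontrivial (center G) := h3.center_nontrivial
      have h5 : (center G).Normal := inferInstance
      rcases h5.eq_bot_or_eq_top with h6 | h6
      · rw [h6] at h4
        exact not_subsingleton _ (inferInstance : Subsingleton (⊥ : Subgroup G))
      · apply hG
        refine ⟨⟨fun a b => ?_⟩⟩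
        have : b ∈ center G := by rw [h6]; trivial
        exact Subgroup.mem_center_iff.1 this a
  rw [H80.stronglyEmbedded_iff_normalizer hMtop (S.subtype hSM)]
  · intro X hX hX1
    set X' := X.map M.subtype with hX'
    have hX'1 : X' ≠ ⊥ := by
      intro h
      apply hX1
      rwa [hX', Subgroup.map_eq_bot_iff_of_injective _ M.subtype_injective] at h
    have hX'p : IsPGroup 2 X' := ((S.subtype hSM).isPGroup'.to_le hX).map _
    obtain ⟨M₁, hM1, hXM1⟩ := exists_max (G := G) ⟨X', hX'p, hX'1, rfl⟩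
    have := uniq h1 he (Nat.card G) X' (Nat.sub_le _ _) hX'p hX'1 M M₁ hM hM1 (Subgroup.map_subtype_le _)
      (le_normalizer.trans hXM1)
    rw [this]
    exact hXM1
  · intro h
    apply hS1
    rw [eq_bot_iff]
    intro x hx
    have : (⟨x, hSM hx⟩ : M) ∈ (S : Subgroup G).subgroupOf M := hx
    rw [← Sylow.coe_subtype (h := hSM), h, Subgroup.mem_bot] at this
    simpa using congrArg Subtype.val this

end Cfsg.Agent.BS
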